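import Mathlib
import Cfsg.Agent.H553.SolvPerm
import Cfsg.Agent.H553.Recur
set_option linter.all false

-- part: H553/Weights
section
/-!
# Weight spaces of an abelian normal subgroup of a finite complex linear group

`nb_of_not_scalar`: the block reduction. If `A` is an abelian normal subgroup of the finite
solvable group `G ≤ GL(V)` not acting by scalars, the bound `NB G (3 ^ (dim V - 1))` follows from the
same bound in smaller dimensions.
-/

set_option autoImplicit false

namespace Cfsg.Agent.H553.Weights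

open Module SB

universe u v

/-- An endomorphism of finite order with only one eigenvalue is a scalar. -/
theorem scalar_of_maxGen {V : Type*} [AddCommGroup V] [Module ℂ V] [FiniteDimensional ℂ V]
    (f : Module.End ℂ V) {n : ℕ} (hn : 0 < n) (hf : f ^ n = 1) (c : ℂ)
    (h : f.maxGenEigenspace c = ⊤) : ∀ v, f v = c • v := by
  have hss : f.IsSemisimple := by
    refine Module.End.isSemisimple_of_squarefree_aeval_eq_zero
      (p := Polynomial.X ^ n - Polynomial.C 1) ?_ ?_
    · exact (Polynomial.separable_X_pow_sub_C (1 : ℂ) (by exact_mod_cast hn.ne')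
        one_ne_zero).squarefree
    · simp [hf]
  rw [hss.isFinitelySemisimple.maxGenEigenspace_eq_eigenspace] at h
  intro v
  have hv : v ∈ f.eigenspace c := by rw [h]; trivial
  exact Module.End.mem_eigenspace_iff.mp hv

variable {G : Type u} [Group G] {V : Type v} [AddCommGroup V] [Module ℂ V]

/-- The generalized weight space. -/
def wt (ρ : Representation ℂ G V) (A : Subgroup G) (χ : A → ℂ) : Submodule ℂ V :=
  ⨅ a : A, Module.End.maxGenEigenspace (ρ a) (χ a)

theorem mem_wt (ρ : Representation ℂ G V) (A : Subgroup G) (χ : A → ℂ) (v : V) :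
    v ∈ wt ρ A χ ↔ ∀ a : A, ∃ k : ℕ, ((ρ a - χ a • (1 : Module.End ℂ V)) ^ k) v = 0 := by
  rw [wt, Submodule.mem_iInf]
  exact forall_congr' (fun a => Module.End.mem_maxGenEigenspace _ _ _)

/-- Conjugation of weights. -/
def cj {A : Subgroup G} (hA : A.Normal) (g : G) (χ : A → ℂ) : A → ℂ :=
  fun a => χ ⟨g⁻¹ * a * g, by simpa using hA.conj_mem a a.2 g⁻¹⟩

theorem cj_one {A : Subgroup G} (hA : A.Normal) (χ : A → ℂ) : cj hA 1 χ = χ := by
  funext a
  unfold cj
  congr 1
  apply Subtype.ext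
  simp

theorem cj_mul {A : Subgroup G} (hA : A.Normal) (g h : G) (χ : A → ℂ) :
    cj hA (g * h) χ = cj hA g (cj hA h χ) := by
  funext a
  unfold cj
  congr 1
  apply Subtype.ext
  simp [mul_assoc]

theorem map_mem_wt (ρ : Representation ℂ G V) {A : Subgroup G} (hA : A.Normal) (g : G)
    (χ : A → ℂ) {v : V} (hv : v ∈ wt ρ A χ) : ρ g v ∈ wt ρ A (cj hA g χ) := by
  rw [mem_wt] at hv ⊢
  intro a
  obtain ⟨k, hk⟩ := hv ⟨g⁻¹ * a * g, by simpa using hA.conj_mem a a.2 g⁻¹⟩
  refine ⟨k, ?_⟩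
  have h1 : ∀ w : V, (ρ a - cj hA g χ a • (1 : Module.End ℂ V)) (ρ g w) =
      ρ g ((ρ (g⁻¹ * a * g) - cj hA g χ a • (1 : Module.End ℂ V)) w) := by
    intro w
    have h2 : ρ a (ρ g w) = ρ g (ρ (g⁻¹ * a * g) w) := by
      rw [← Module.End.mul_apply, ← Module.End.mul_apply, ← map_mul, ← map_mul]
      congr 2
      group
    simp only [LinearMap.sub_apply, LinearMap.smul_apply, Module.End.one_apply, h2, map_sub,
      map_smul]
  have h3 : ∀ (k : ℕ) (w : V), ((ρ a - cj hA g χ a • (1 : Module.End ℂ V)) ^ k) (ρ g w) =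
      ρ g (((ρ (g⁻¹ * a * g) - cj hA g χ a • (1 : Module.End ℂ V)) ^ k) w) := by
    intro k
    induction k with
    | zero => intro w; simp
    | succ k ih =>
      intro w
      rw [pow_succ, pow_succ, Module.End.mul_apply, Module.End.mul_apply, h1, ih]
  rw [h3 k v]
  have h4 : cj hA g χ a = χ ⟨g⁻¹ * a * g, by simpa using hA.conj_mem a a.2 g⁻¹⟩ := rfl
  rw [h4]
  have h5 : ((ρ (g⁻¹ * a * g) - χ ⟨g⁻¹ * a * g, by simpa using hA.conj_mem a a.2 g⁻¹⟩ •
      (1 : Module.End ℂ V)) ^ k) v = 0 := hk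
  rw [h5, map_zero]

/-- the weights that occur -/
def Om (ρ : Representation ℂ G V) (A : Subgroup G) : Type u := {χ : A → ℂ // wt ρ A χ ≠ ⊥}

theorem cj_ne_bot (ρ : Representation ℂ G V) {A : Subgroup G} (hA : A.Normal)
    (hρ : Function.Injective ρ) (g : G) {χ : A → ℂ} (hχ : wt ρ A χ ≠ ⊥) :
    wt ρ A (cj hA g χ) ≠ ⊥ := by
  intro h
  apply hχ
  rw [Submodule.eq_bot_iff]
  intro v hv
  have h1 := map_mem_wt ρ hA g χ hv
  rw [h, Submodule.mem_bot] at h1
  have h2 : ρ g⁻¹ (ρ g v) = v := by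
    rw [← Module.End.mul_apply, ← map_mul, inv_mul_cancel, map_one, Module.End.one_apply]
  rw [← h2, h1, map_zero]

/-- the action of `G` on the weights -/
def act (ρ : Representation ℂ G V) {A : Subgroup G} (hA : A.Normal)
    (hρ : Function.Injective ρ) : G →* Equiv.Perm (Om ρ A) where
  toFun g :=
    { toFun := fun χ => ⟨cj hA g χ.1, cj_ne_bot ρ hA hρ g χ.2⟩
      invFun := fun χ => ⟨cj hA g⁻¹ χ.1, cj_ne_bot ρ hA hρ g⁻¹ χ.2⟩
      left_inv := fun χ => Subtype.ext (by
        change cj hA g⁻¹ (cj hA g χ.1) = χ.1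
        rw [← cj_mul, inv_mul_cancel, cj_one])
      right_inv := fun χ => Subtype.ext (by
        change cj hA g (cj hA g⁻¹ χ.1) = χ.1
        rw [← cj_mul, mul_inv_cancel, cj_one]) }
  map_one' := by
    apply Equiv.ext
    intro χ
    exact Subtype.ext (cj_one hA χ.1)
  map_mul' g h := by
    apply Equiv.ext
    intro χ
    exact Subtype.ext (cj_mul hA g h χ.1)

theorem mapsTo_of_ker (ρ : Representation ℂ G V) {A : Subgroup G} (hA : A.Normal)
    (hρ : Function.Injective ρ) (k : (act ρ hA hρ).ker) (χ : Om ρ A) :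
    ∀ v ∈ wt ρ A χ.1, ρ k v ∈ wt ρ A χ.1 := by
  intro v hv
  have h1 := map_mem_wt ρ hA k χ.1 hv
  have h2 : act ρ hA hρ k = 1 := k.2
  have h3 : cj hA k χ.1 = χ.1 := congrArg (fun e : Equiv.Perm (Om ρ A) => (e χ).1) h2
  rwa [h3] at h1

/-- the representation of the kernel on a weight space -/
def res (ρ : Representation ℂ G V) {A : Subgroup G} (hA : A.Normal)
    (hρ : Function.Injective ρ) (χ : Om ρ A) :
    Representation ℂ (act ρ hA hρ).ker (wt ρ A χ.1) where
  toFun k := (ρ k).restrict (mapsTo_of_ker ρ hA hρ k χ)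
  map_one' := by
    apply LinearMap.ext
    intro v
    apply Subtype.ext
    simp [LinearMap.restrict_apply]
  map_mul' k l := by
    apply LinearMap.ext
    intro v
    apply Subtype.ext
    simp [LinearMap.restrict_apply]

theorem res_apply (ρ : Representation ℂ G V) {A : Subgroup G} (hA : A.Normal)
    (hρ : Function.Injective ρ) (χ : Om ρ A) (k : (act ρ hA hρ).ker) (v : wt ρ A χ.1) :
    ((res ρ hA hρ χ k v : wt ρ A χ.1) : V) = ρ k v := rfl

variable [Finite G] [FiniteDimensional ℂ V]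

theorem iSup_wt (ρ : Representation ℂ G V) {A : Subgroup G}
    (hc : ∀ a ∈ A, ∀ b ∈ A, a * b = b * a) : ⨆ χ : A → ℂ, wt ρ A χ = ⊤ := by
  refine Module.End.iSup_iInf_maxGenEigenspace_eq_top_of_iSup_maxGenEigenspace_eq_top_of_commute
    (fun a : A => (ρ a : Module.End ℂ V)) ?_ (fun a => Module.End.iSup_maxGenEigenspace_eq_top _)
  intro a b _
  change ρ a * ρ b = ρ b * ρ a
  rw [← map_mul, ← map_mul, hc a a.2 b b.2]

theorem indep_wt (ρ : Representation ℂ G V) {A : Subgroup G}
    (hc : ∀ a ∈ A, ∀ b ∈ A, a * b = b * a) : iSupIndep fun χ : A → ℂ => wt ρ A χ := by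
  refine Module.End.independent_iInf_maxGenEigenspace_of_forall_mapsTo
    (fun a : A => (ρ a : Module.End ℂ V)) ?_
  intro a b μ
  refine Module.End.mapsTo_maxGenEigenspace_of_comm ?_ μ
  change ρ b * ρ a = ρ a * ρ b
  rw [← map_mul, ← map_mul, hc a a.2 b b.2]

theorem finite_Om (ρ : Representation ℂ G V) {A : Subgroup G}
    (hc : ∀ a ∈ A, ∀ b ∈ A, a * b = b * a) : Finite (Om ρ A) :=
  (WellFoundedGT.finite_ne_bot_of_iSupIndep (indep_wt ρ hc)).to_subtype

theorem iSup_Om (ρ : Representation ℂ G V) {A : Subgroup G}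
    (hc : ∀ a ∈ A, ∀ b ∈ A, a * b = b * a) : ⨆ χ : Om ρ A, wt ρ A χ.1 = ⊤ := by
  rw [eq_top_iff, ← iSup_wt ρ hc]
  refine iSup_le (fun χ => ?_)
  by_cases h : wt ρ A χ = ⊥
  · rw [h]; exact bot_le
  · exact le_iSup (fun χ : Om ρ A => wt ρ A χ.1) ⟨χ, h⟩

theorem indep_Om (ρ : Representation ℂ G V) {A : Subgroup G}
    (hc : ∀ a ∈ A, ∀ b ∈ A, a * b = b * a) : iSupIndep fun χ : Om ρ A => wt ρ A χ.1 :=
  (indep_wt ρ hc).comp Subtype.val_injective

theorem sum_finrank (ρ : Representation ℂ G V) {A : Subgroup G}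
    (hc : ∀ a ∈ A, ∀ b ∈ A, a * b = b * a) [Fintype (Om ρ A)] :
    ∑ χ : Om ρ A, finrank ℂ (wt ρ A χ.1) = finrank ℂ V := by
  classical
  have h := DirectSum.isInternal_submodule_of_iSupIndep_of_iSup_eq_top (indep_Om ρ hc)
    (iSup_Om ρ hc)
  rw [← Module.finrank_directSum]
  exact LinearEquiv.finrank_eq (LinearEquiv.ofBijective
    (DirectSum.coeLinearMap (fun χ : Om ρ A => wt ρ A χ.1)) h)

/-- The bound in dimension `n`. -/
def Bound (n : ℕ) : Prop :=
  ∀ (G : Type u) [Group G] [Finite G] [Group.IsSolvable G] (V : Type v) [AddCommGroup V]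
    [Module ℂ V] [FiniteDimensional ℂ V] (ρ : Representation ℂ G V), Function.Injective ρ →
    finrank ℂ V = n → NB G (3 ^ (n - 1))

theorem nb_of_not_scalar [hs : Group.IsSolvable G] (ρ : Representation ℂ G V)
    (hρ : Function.Injective ρ) (A : Subgroup G) (hA : A.Normal)
    (hc : ∀ a ∈ A, ∀ b ∈ A, a * b = b * a) (hV : 1 ≤ finrank ℂ V)
    (hns : ¬ ∀ a ∈ A, ∃ c : ℂ, ∀ v, ρ a v = c • v)
    (ih : ∀ n, 1 ≤ n → n < finrank ℂ V → Bound.{u, v} n) :
    NB G (3 ^ (finrank ℂ V - 1)) := by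
  classical
  have hfin := finite_Om ρ hc
  have := Fintype.ofFinite (Om ρ A)
  have hsum := sum_finrank ρ hc
  have hpos : ∀ χ : Om ρ A, 1 ≤ finrank ℂ (wt ρ A χ.1) := by
    intro χ
    have : Nontrivial (wt ρ A χ.1) := (Submodule.nontrivial_iff_ne_bot).mpr χ.2
    exact Module.finrank_pos
  have hne : Nonempty (Om ρ A) := by
    by_contra hempty
    rw [not_nonempty_iff] at hempty
    rw [Finset.univ_eq_empty, Finset.sum_empty] at hsum
    omega
  -- there are at least two weights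
  have htwo : ∀ χ : Om ρ A, finrank ℂ (wt ρ A χ.1) < finrank ℂ V := by
    intro χ
    refine Submodule.finrank_lt (fun htop => hns ?_)
    intro a ha
    refine ⟨χ.1 ⟨a, ha⟩, ?_⟩
    have h1 : Module.End.maxGenEigenspace (ρ a) (χ.1 ⟨a, ha⟩) = ⊤ := by
      rw [eq_top_iff, ← htop]
      exact iInf_le (fun b : A => Module.End.maxGenEigenspace (ρ b) (χ.1 b)) ⟨a, ha⟩
    refine scalar_of_maxGen (ρ a) (n := orderOf a) (orderOf_pos a) ?_ _ h1
    rw [← map_pow, pow_orderOf_eq_one, map_one]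
  -- the kernel
  set K := (act ρ hA hρ).ker with hK
  have hsol : ∀ X : Subgroup G, Group.IsSolvable X := fun X => inferInstance
  have hKNB : NB K (∏ᶠ χ : Om ρ A, 3 ^ (finrank ℂ (wt ρ A χ.1) - 1)) := by
    refine NB.pi (H := fun χ : Om ρ A => K ⧸ (res ρ hA hρ χ).ker) _
      (fun χ => QuotientGroup.mk' (res ρ hA hρ χ).ker) ?_ ?_
    · intro k hk
      apply Subtype.ext
      apply hρ
      rw [Subgroup.coe_one, map_one]
      apply LinearMap.ext
      intro v
      have hv : v ∈ ⨆ χ : Om ρ A, wt ρ A χ.1 := by rw [iSup_Om ρ hc]; trivial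
      induction hv using Submodule.iSup_induction' with
      | mem χ w hw =>
        have h2 : k ∈ (res ρ hA hρ χ).ker := (QuotientGroup.eq_one_iff k).mp (hk χ)
        have h3 : res ρ hA hρ χ k = 1 := h2
        have h4 := congrArg (fun f : wt ρ A χ.1 →ₗ[ℂ] wt ρ A χ.1 => ((f ⟨w, hw⟩ : _) : V)) h3
        exact h4
      | zero => simp
      | add x y _ _ hx hy => rw [map_add, hx, hy, map_add]
    · intro χ
      have hs' : Group.IsSolvable (K ⧸ (res ρ hA hρ χ).ker) := inferInstance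
      refine ih (finrank ℂ (wt ρ A χ.1)) (hpos χ) (htwo χ) (K ⧸ (res ρ hA hρ χ).ker)
        (wt ρ A χ.1) (QuotientGroup.lift (res ρ hA hρ χ).ker (res ρ hA hρ χ) le_rfl) ?_ rfl
      rw [injective_iff_map_eq_one]
      intro x hx
      obtain ⟨k, rfl⟩ := QuotientGroup.mk_surjective x
      rw [QuotientGroup.eq_one_iff]
      exact hx
  have hquot : SubB (G ⧸ K) (3 ^ (Nat.card (Om ρ A) - 1)) :=
    SubB.congr (QuotientGroup.quotientKerEquivRange (act ρ hA hρ))
      (SolvPerm.subB_range hne (act ρ hA hρ))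
  refine (NB.of_normal K hKNB hquot).mono ?_
  rw [finprod_eq_prod_of_fintype, Finset.prod_pow_eq_pow_sum, ← pow_add]
  apply Nat.pow_le_pow_right (by norm_num)
  have h5 : ∑ χ : Om ρ A, (finrank ℂ (wt ρ A χ.1) - 1) + Fintype.card (Om ρ A) =
      finrank ℂ V := by
    rw [← hsum, ← Finset.card_univ, Finset.card_eq_sum_ones, ← Finset.sum_add_distrib]
    refine Finset.sum_congr rfl (fun χ _ => ?_)
    have := hpos χ
    omega
  have h6 : 0 < Fintype.card (Om ρ A) := Fintype.card_pos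
  rw [Nat.card_eq_fintype_card]
  omega

end Cfsg.Agent.H553.Weights
end

-- part: H553/Quasi
section
/-!
# Solvable linear groups all of whose abelian normal subgroups are scalar

`nb_of_scalar` and the main bound `bound_all`.
-/

set_option autoImplicit false

namespace Cfsg.Agent.H553.Quasi

open Module SB Subgroup CF
open scoped commutatorElement

universe u v

/-- `D(E)` is nilpotent if `C_G(E) ≤ Z(G)` . -/
theorem D_nilpotent {G : Type u} [Group G] (E : Subgroup G)
    (hc : ∀ x : G, (∀ y ∈ E, x * y = y * x) → x ∈ center G) : Group.IsNilpotent (D E) := by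
  have h1 : ⁅E, D E⁆ ≤ center G := by
    rw [Subgroup.commutator_le]
    intro k hk g hg
    exact mem_D.mp hg k hk
  have h2 : ⁅⁅E, D E⁆, D E⁆ = ⊥ := by
    rw [Subgroup.commutator_eq_bot_iff_le_centralizer]
    exact h1.trans (Subgroup.center_le_centralizer _)
  have h3 : ⁅⁅D E, E⁆, D E⁆ = ⊥ := by
    rw [Subgroup.commutator_comm (D E) E]
    exact h2
  have h4 : ⁅⁅D E, D E⁆, E⁆ = ⊥ := commutator_commutator_eq_bot_of_rotate h3 h2
  have h5 : ⁅D E, D E⁆ ≤ center G := by
    rw [Subgroup.commutator_eq_bot_iff_le_centralizer] at h4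
    intro x hx
    exact hc x (fun y hy => (mem_centralizer_iff.mp (h4 hx) y hy).symm)
  apply Group.of_quotient_center_nilpotent
  have h6 : ∀ a b : (D E) ⧸ center (D E), a * b = b * a := by
    intro a b
    obtain ⟨x, rfl⟩ := QuotientGroup.mk'_surjective _ a
    obtain ⟨y, rfl⟩ := QuotientGroup.mk'_surjective _ b
    rw [← commutatorElement_eq_one_iff_mul_comm, ← map_commutatorElement]
    refine (QuotientGroup.eq_one_iff _).2 ?_
    rw [mem_center_iff]
    intro g
    apply Subtype.ext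
    have h7 : ((⁅x, y⁆ : D E) : G) ∈ center G :=
      h5 (Subgroup.commutator_mem_commutator x.2 y.2)
    exact mem_center_iff.mp h7 g
  let _ : CommGroup ((D E) ⧸ center (D E)) :=
    { (inferInstance : Group ((D E) ⧸ center (D E))) with mul_comm := h6 }
  infer_instance

variable {G : Type u} [Group G] {V : Type v} [AddCommGroup V] [Module ℂ V]
  [FiniteDimensional ℂ V]

omit [FiniteDimensional ℂ V] in
/-- The trace of a non-central element of `E` vanishes. -/
theorem trace_eq_zero (ρ : Representation ℂ G V) (hρ : Function.Injective ρ)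
    (hsc : ∀ z ∈ center G, ∃ c : ℂ, ∀ v, ρ z v = c • v) {x y : G}
    (hxy : ⁅y, x⁆ ∈ center G) (hne : ⁅y, x⁆ ≠ 1) : LinearMap.trace ℂ V (ρ x) = 0 := by
  obtain ⟨c, hc⟩ := hsc _ hxy
  have hc1 : c ≠ 1 := by
    rintro rfl
    apply hne
    apply hρ
    rw [map_one]
    ext v
    rw [hc, one_smul]
    rfl
  have h1 : ρ (y * x * y⁻¹) = c • ρ x := by
    have h2 : y * x * y⁻¹ = ⁅y, x⁆ * x := by rw [commutatorElement_def]; group
    rw [h2, map_mul]
    ext v
    rw [Module.End.mul_apply, hc]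
    rfl
  have h3 : LinearMap.trace ℂ V (ρ (y * x * y⁻¹)) = LinearMap.trace ℂ V (ρ x) := by
    rw [map_mul, LinearMap.trace_mul_comm, ← map_mul]
    congr 2
    group
  rw [h1, map_smul, smul_eq_mul] at h3
  have h4 : (c - 1) * LinearMap.trace ℂ V (ρ x) = 0 := by linear_combination h3
  exact (mul_eq_zero.mp h4).resolve_left (sub_ne_zero.mpr hc1)

/-- `|E : Z| ≤ (dim V)²`. -/
theorem e_le [Finite G] (ρ : Representation ℂ G V) (hρ : Function.Injective ρ)
    (hV : 1 ≤ finrank ℂ V)
    (hsc : ∀ z ∈ center G, ∃ c : ℂ, ∀ v, ρ z v = c • v) (E : Subgroup G) (hZE : center G ≤ E)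
    (hEE : ∀ x ∈ E, ∀ y ∈ E, ⁅x, y⁆ ∈ center G)
    (hEc : ∀ x ∈ E, (∀ y ∈ E, x * y = y * x) → x ∈ center G) (e : ℕ)
    (he : Nat.card E = e ^ 2 * Nat.card (center G)) : e ≤ finrank ℂ V := by
  classical
  have hidx : Nat.card (E ⧸ (center G).subgroupOf E) = e ^ 2 := by
    have h1 := card_mul_relIndex hZE
    rw [he, mul_comm] at h1
    exact Nat.eq_of_mul_eq_mul_right Nat.card_pos h1
  have := Fintype.ofFinite (E ⧸ (center G).subgroupOf E)
  let r : E ⧸ (center G).subgroupOf E → G := fun q => ((q.out : E) : G)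
  have hr : ∀ q, r q ∈ E := fun q => (q.out).2
  have htr : ∀ q q', q ≠ q' → LinearMap.trace ℂ V (ρ (r q * (r q')⁻¹)) = 0 := by
    intro q q' hqq
    have hx : r q * (r q')⁻¹ ∈ E := mul_mem (hr q) (inv_mem (hr q'))
    have hxZ : r q * (r q')⁻¹ ∉ center G := by
      intro h
      apply hqq
      rw [← QuotientGroup.out_eq' q, ← QuotientGroup.out_eq' q', QuotientGroup.eq, mem_subgroupOf]
      change (r q)⁻¹ * r q' ∈ center G
      have h1 := inv_mem h
      have h2 : (r q * (r q')⁻¹)⁻¹ = r q' * (r q)⁻¹ := by group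
      rw [h2] at h1
      have h3 := mem_center_iff.mp h1 (r q)
      have h4 : (r q)⁻¹ * r q' = r q' * (r q)⁻¹ := by
        calc (r q)⁻¹ * r q' = (r q)⁻¹ * (r q' * (r q)⁻¹ * r q) := by group
          _ = (r q)⁻¹ * (r q * (r q' * (r q)⁻¹)) := by rw [h3]
          _ = r q' * (r q)⁻¹ := by group
      rw [h4]
      exact h1
    have hex : ∃ y ∈ E, ⁅y, r q * (r q')⁻¹⁆ ≠ 1 := by
      by_contra hcon
      push Not at hcon
      apply hxZ
      refine hEc _ hx (fun y hy => ?_)
      exact (commutatorElement_eq_one_iff_mul_comm.mp (hcon y hy)).symm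
    obtain ⟨y, hy, hne⟩ := hex
    exact trace_eq_zero ρ hρ hsc (hEE y hy _ hx) hne
  have hli : LinearIndependent ℂ (fun q => (ρ (r q) : V →ₗ[ℂ] V)) := by
    rw [Fintype.linearIndependent_iff]
    intro g hg q₀
    have h1 : LinearMap.trace ℂ V ((∑ q, g q • (ρ (r q) : V →ₗ[ℂ] V)) * ρ ((r q₀)⁻¹)) = 0 := by
      rw [hg, zero_mul, map_zero]
    rw [Finset.sum_mul, map_sum, Finset.sum_eq_single q₀] at h1
    · rw [smul_mul_assoc, ← map_mul, mul_inv_cancel, map_one, map_smul, LinearMap.trace_one,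
        smul_eq_mul] at h1
      rcases mul_eq_zero.mp h1 with h2 | h2
      · exact h2
      · exfalso
        have h3 : finrank ℂ V = 0 := by exact_mod_cast h2
        omega
    · intro q _ hq
      rw [smul_mul_assoc, ← map_mul, map_smul, htr q q₀ hq, smul_zero]
    · intro h
      exact absurd (Finset.mem_univ _) h
  have h5 := hli.fintype_card_le_finrank
  rw [← Nat.card_eq_fintype_card, hidx, Module.finrank_linearMap] at h5
  by_contra hlt
  push Not at hlt
  have := Nat.mul_lt_mul'' hlt hlt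
  rw [pow_two] at h5
  omega

/-- **The quasi-primitive case.** -/
theorem nb_of_scalar [Finite G] [Group.IsSolvable G] (ρ : Representation ℂ G V)
    (hρ : Function.Injective ρ) (hV : 1 ≤ finrank ℂ V)
    (hs : ∀ A : Subgroup G, A.Normal → (∀ x ∈ A, ∀ y ∈ A, x * y = y * x) →
      ∀ a ∈ A, ∃ c : ℂ, ∀ v, ρ a v = c • v) : NB G (3 ^ (finrank ℂ V - 1)) := by
  classical
  have hsc : ∀ z ∈ center G, ∃ c : ℂ, ∀ v, ρ z v = c • v :=
    hs (center G) inferInstance (fun x hx y _ => (mem_center_iff.mp hx y).symm)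
  have hab : ∀ A : Subgroup G, A.Normal → (∀ x ∈ A, ∀ y ∈ A, x * y = y * x) → A ≤ center G := by
    intro A hA hAc a ha
    obtain ⟨c, hc⟩ := hs A hA hAc a ha
    rw [mem_center_iff]
    intro g
    apply hρ
    rw [map_mul, map_mul]
    ext v
    rw [Module.End.mul_apply, Module.End.mul_apply, hc, hc, map_smul]
  have hnt : Nontrivial V := Module.nontrivial_of_finrank_pos (R := ℂ) (by omega)
  obtain ⟨v₀, hv₀⟩ := exists_ne (0 : V)
  choose! χ hχ using hsc
  have hcyc : IsCyclic (center G) := by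
    let f : center G →* ℂ :=
      { toFun := fun z => χ z
        map_one' := by
          have h1 := hχ 1 (one_mem _) v₀
          rw [map_one, Module.End.one_apply] at h1
          have h2 : (χ 1 - 1) • v₀ = 0 := by rw [sub_smul, one_smul, ← h1, sub_self]
          have h3 := (smul_eq_zero.mp h2).resolve_right hv₀
          exact sub_eq_zero.mp h3
        map_mul' := fun z w => by
          have h1 := hχ (z * w) (mul_mem z.2 w.2) v₀
          rw [map_mul, Module.End.mul_apply, hχ w w.2, map_smul, hχ z z.2, smul_smul] at h1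
          have h2 : (χ (z * w) - χ z * χ w) • v₀ = 0 := by
            rw [sub_smul, ← h1, mul_comm, sub_self]
          exact sub_eq_zero.mp ((smul_eq_zero.mp h2).resolve_right hv₀) }
    refine isCyclic_of_injective_ringHom f ?_
    rw [injective_iff_map_eq_one]
    intro z hz
    apply Subtype.ext
    apply hρ
    rw [Subgroup.coe_one, map_one]
    ext v
    have h1 : χ z = 1 := hz
    rw [hχ z z.2, h1, one_smul]
    rfl
  obtain ⟨E, hEn, hZE, -, hEE, hEc, e, he, hEcard, hEsub⟩ :=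
    T_all hcyc hab _ ⊤ rfl inferInstance le_top
  have hDn := D_normal hEn
  have h1 : NB G (3 ^ (e - 1)) :=
    ⟨D E, hDn, D_nilpotent E (fun x hx => hEc x trivial hx), hEsub hDn⟩
  refine h1.mono (Nat.pow_le_pow_right (by norm_num) ?_)
  have h2 := e_le ρ hρ hV (fun z hz => ⟨χ z, hχ z hz⟩) E hZE hEE (fun x _ hx => hEc x trivial hx)
    e hEcard
  omega

/-- **The bound in all dimensions.** -/
theorem bound_all (n : ℕ) (hn : 1 ≤ n) : Weights.Bound.{u, v} n := by
  induction n using Nat.strong_induction_on with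
  | _ n ih =>
  intro G _ _ _ V _ _ _ ρ hρ hV
  subst hV
  by_cases h : ∀ A : Subgroup G, A.Normal → (∀ x ∈ A, ∀ y ∈ A, x * y = y * x) →
      ∀ a ∈ A, ∃ c : ℂ, ∀ v, ρ a v = c • v
  · exact nb_of_scalar ρ hρ hn h
  · push Not at h
    obtain ⟨A, hA, hAc, a, haA, ha⟩ := h
    refine Weights.nb_of_not_scalar ρ hρ A hA hAc hn ?_ (fun m hm hmlt => ih m hmlt hm)
    intro hcon
    obtain ⟨c, hc⟩ := hcon a haA
    obtain ⟨v, hv⟩ := ha c
    exact hv (hc v)

end Cfsg.Agent.H553.Quasi
end
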